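import Cfsg.Agent.AutSp.Lang

/-!
Centralizers and class counts of field automorphisms of `PSp_{2m}(q)`.
-/

set_option autoImplicit false

namespace Cfsg.Agent.AutSp

open Matrix ClassSp AutLie

variable {m : ℕ} {F : Type*} [Field F]

/-- elements commuting with the standard field automorphism -/
theorem commute_ph_iff [Finite F] (hm : 2 ≤ m) (σ : RingAut F) (g : gsp (Fin m) F) :
    dg g * ph σ = ph σ * dg g ↔ ∃ b : Fˣ, mapG σ (g * scal b) = g * scal b := by
  have hl : 2 ≤ Fintype.card (Fin m) := by rw [Fintype.card_fin]; exact hm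
  have hfin : Finite (RingAut F) :=
    Finite.of_injective (fun τ : RingAut F => (τ : F → F)) (fun a b h => RingEquiv.ext (congrFun h))
  have hr : 0 < orderOf σ := orderOf_pos σ
  rw [ph_comm, mul_left_inj, eq_comm, dg_eq_iff hl]
  constructor
  · rintro ⟨c, hc⟩
    have hk : ∀ k, mapG (σ ^ k : RingAut F) g = g * scal (twNorm (uMap σ) c k) := by
      intro k
      induction k with
      | zero =>
        simp only [twNorm, scal_one, mul_one]
        rfl
      | succ k ih =>
        rw [← mapG_iterate, Function.iterate_succ_apply', mapG_iterate, ih, map_mul, hc, mapG_scal, mul_assoc,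
          ← scal_mul, twNorm_succ]
    have h1 := hk (orderOf σ)
    rw [pow_orderOf_eq_one, show mapG (1 : RingAut F) g = g from rfl] at h1
    have h2 : twNorm (uMap σ) c (orderOf σ) = 1 := by
      apply scal_injective (F := F) (m := m) (by omega)
      rw [scal_one]
      exact (left_eq_mul.1 h1)
    obtain ⟨b, hb⟩ := hilbert90_units σ hr c h2
    refine ⟨b, ?_⟩
    rw [map_mul, hc, mapG_scal, mul_assoc, ← scal_mul, hb, inv_mul_cancel_right]
  · rintro ⟨b, hb⟩
    refine ⟨b * (uMap σ b)⁻¹, ?_⟩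
    rw [map_mul, mapG_scal] at hb
    rw [eq_mul_inv_of_mul_eq hb, ← scal_inv, mul_assoc, ← scal_mul]

section incl
variable {K : Type*} [Field K] (j : K →+* F)

/-- extension of scalars on the conformal symplectic group -/
def incl : ↥(Cfsg.GSp m K) →* gsp (Fin m) F where
  toFun g := ⟨Matrix.GeneralLinearGroup.map j g, by
    have hg : (g : GL (Fin m ⊕ Fin m) K) ∈ gsp (Fin m) K := (le_of_eq GSp_eq) g.2
    obtain ⟨κ, hκ⟩ := hg
    refine ⟨Units.map (j : K →* F) κ, ?_⟩
    -- check on a basis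
    have hmat : (-((((Matrix.GeneralLinearGroup.map j (g : GL (Fin m ⊕ Fin m) K) : GL (Fin m ⊕ Fin m) F) :
        Matrix (Fin m ⊕ Fin m) (Fin m ⊕ Fin m) F))ᵀ * J (Fin m) F *
        ((Matrix.GeneralLinearGroup.map j (g : GL (Fin m ⊕ Fin m) K) : GL (Fin m ⊕ Fin m) F) :
          Matrix (Fin m ⊕ Fin m) (Fin m ⊕ Fin m) F))) = (j κ) • (-J (Fin m) F) := by
      have e3 : -J (Fin m) F = -((1 : Matrix (Fin m ⊕ Fin m) (Fin m ⊕ Fin m) F)ᵀ * J (Fin m) F * 1) := by simp
      ext i k
      rw [Matrix.smul_apply, form_entry, e3, form_entry]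
      have e2 : ∀ i : Fin m ⊕ Fin m, (fun r => j ((Pi.single i (1 : K) : Fin m ⊕ Fin m → K) r)) = Pi.single i 1 := by
        intro i
        funext r
        by_cases h : r = i
        · subst h; simp
        · simp [Pi.single_eq_of_ne h]
      rw [Matrix.one_mulVec, Matrix.one_mulVec, ← e2 i, ← e2 k]
      have h1 := hκ (Pi.single i 1) (Pi.single k 1)
      have h2 := congrArg j h1
      rw [← sf_mapHom, mapHom_mulVec, mapHom_mulVec, map_mul, ← sf_mapHom] at h2
      exact h2
    intro u v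
    rw [← form_matrix, hmat, Matrix.smul_mulVec, dotProduct_smul, Matrix.neg_mulVec, dotProduct_neg, ← sf_eq_dotProduct]
    rfl⟩
  map_one' := by apply Subtype.ext; exact map_one _
  map_mul' g h := by apply Subtype.ext; exact map_mul _ _ _

theorem coe_incl (g : ↥(Cfsg.GSp m K)) : ((incl j g : gsp (Fin m) F) : GL (Fin m ⊕ Fin m) F) =
    Matrix.GeneralLinearGroup.map j g := rfl

variable (σ : RingAut F) (hj : ∀ x, σ x = x ↔ x ∈ Set.range j)
include hj

theorem mapG_incl (g : ↥(Cfsg.GSp m K)) : mapG σ (incl j g) = incl j g :=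
  Subtype.ext (AutPSL.mapGL_map j σ hj _)

theorem exists_incl [Nonempty (Fin m)] (g : gsp (Fin m) F) (hg : mapG σ g = g) :
    ∃ h : ↥(Cfsg.GSp m K), incl j h = g := by
  obtain ⟨h, hh⟩ := AutPSL.exists_of_fixed j σ hj (g : GL (Fin m ⊕ Fin m) F) (congrArg Subtype.val hg)
  have hmu : uMap σ (mult g) = mult g := by rw [← mult_mapG, hg]
  obtain ⟨κ, hκ⟩ := (hj (mult g : F)).1 (congrArg Units.val hmu)
  have hκ0 : κ ≠ 0 := by rintro rfl; rw [map_zero] at hκ; exact (mult g).ne_zero hκ.symm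
  refine ⟨⟨h, ?_⟩, Subtype.ext hh⟩
  rw [GSp_eq]
  refine ⟨Units.mk0 κ hκ0, fun u v => ?_⟩
  apply j.injective
  rw [← sf_mapHom, mapHom_mulVec, mapHom_mulVec, map_mul, Units.val_mk0, hκ, ← sf_mapHom]
  have h1 : (h : Matrix (Fin m ⊕ Fin m) (Fin m ⊕ Fin m) K).map j =
      ((g : GL (Fin m ⊕ Fin m) F) : Matrix (Fin m ⊕ Fin m) (Fin m ⊕ Fin m) F) := congrArg Units.val hh
  rw [h1, mult_spec]

/-- the centralizer of the standard field automorphism in `Inndiag` -/
theorem cent_ph [Finite F] (hm : 2 ≤ m) :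
    Nonempty (↥((dg : gsp (Fin m) F →* MulAut (T (Fin m) F)).range ⊓ Subgroup.centralizer {ph σ}) ≃* Cfsg.PGSp m K) := by
  have hl : 2 ≤ Fintype.card (Fin m) := by rw [Fintype.card_fin]; exact hm
  have hne : Nonempty (Fin m) := ⟨⟨0, by omega⟩⟩
  let ρ0 : ↥(Cfsg.GSp m K) →* MulAut (T (Fin m) F) := dg.comp (incl j)
  have hρ : ∀ h, ρ0 h ∈ (dg : gsp (Fin m) F →* MulAut (T (Fin m) F)).range ⊓ Subgroup.centralizer {ph σ} := by
    intro h
    refine ⟨⟨_, rfl⟩, Subgroup.mem_centralizer_singleton_iff.2 ?_⟩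
    change dg _ * _ = _ * dg _
    rw [ph_comm, mapG_incl j σ hj]
  let ρ := ρ0.codRestrict _ hρ
  have hsurj : Function.Surjective ρ := by
    rintro ⟨_, ⟨g, rfl⟩, hg⟩
    obtain ⟨b, hb⟩ := (commute_ph_iff hm σ g).1 (Subgroup.mem_centralizer_singleton_iff.1 hg)
    obtain ⟨h, hh⟩ := exists_incl j σ hj _ hb
    refine ⟨h, Subtype.ext ?_⟩
    change dg _ = dg _
    rw [hh, map_mul, dg_scal, mul_one]
  have hker : ρ.ker = (Cfsg.Geo.scalars (Fin m ⊕ Fin m) K).subgroupOf (Cfsg.GSp m K) := by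
    ext h
    rw [MonoidHom.mem_ker, Subgroup.mem_subgroupOf]
    have h1 : ρ h = 1 ↔ dg (incl j h) = dg (1 : gsp (Fin m) F) := by
      rw [map_one]
      exact Subtype.ext_iff
    rw [h1, dg_eq_iff hl]
    have hinj : Function.Injective (Matrix.GeneralLinearGroup.map j : GL (Fin m ⊕ Fin m) K →* GL (Fin m ⊕ Fin m) F) := by
      intro a b hab
      apply Units.ext
      ext i k
      apply j.injective
      exact congrArg (fun M : GL (Fin m ⊕ Fin m) F => (M : Matrix (Fin m ⊕ Fin m) (Fin m ⊕ Fin m) F) i k) hab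
    constructor
    · rintro ⟨c, hc⟩
      rw [one_mul] at hc
      have h2 : uMap σ c = c := by
        have := mapG_incl j σ hj h
        rw [hc, mapG_scal] at this
        exact scal_injective (by omega) this
      obtain ⟨y, hy⟩ := (hj c).1 (congrArg Units.val h2)
      have hy0 : y ≠ 0 := by rintro rfl; rw [map_zero] at hy; exact c.ne_zero hy.symm
      refine ⟨Units.mk0 y hy0, ?_⟩
      apply hinj
      have h3 : Matrix.GeneralLinearGroup.map j (h : GL (Fin m ⊕ Fin m) K) = Matrix.GeneralLinearGroup.scalar (Fin m ⊕ Fin m) c :=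
        congrArg Subtype.val hc
      rw [h3]
      have h4 := AutPSL.map_scalar j (m := Fin m ⊕ Fin m) (Units.mk0 y hy0)
      have h5 : Units.map (j : K →* F) (Units.mk0 y hy0) = c := Units.ext hy
      rw [h5] at h4
      exact h4
    · rintro ⟨c, hc⟩
      refine ⟨Units.map (j : K →* F) c, ?_⟩
      rw [one_mul]
      apply Subtype.ext
      have h4 := AutPSL.map_scalar j (m := Fin m ⊕ Fin m) c
      change Matrix.GeneralLinearGroup.map j (h : GL (Fin m ⊕ Fin m) K) =
        Matrix.GeneralLinearGroup.scalar (Fin m ⊕ Fin m) (Units.map (j : K →* F) c)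
      rw [← h4]
      congr 1
      exact hc.symm
  exact ⟨(QuotientGroup.quotientKerEquivOfSurjective ρ hsurj).symm.trans (QuotientGroup.quotientMulEquivOfEq hker)⟩

/-- the number of `T`-classes of standard field automorphisms -/
theorem count_ph [Fintype F] [Fintype K] (hm : 2 ≤ m) :
    Cfsg.splitClassCount (dg : gsp (Fin m) F →* MulAut (T (Fin m) F)).range (Cfsg.Inn (T (Fin m) F)) (ph σ) =
      Nat.gcd 2 ((Fintype.card F - 1) / (Fintype.card K - 1)) := by
  classical
  have hl : 2 ≤ Fintype.card (Fin m) := by rw [Fintype.card_fin]; exact hm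
  have hne : Nonempty (Fin m) := ⟨⟨0, by omega⟩⟩
  let A : Subgroup Fˣ := (Units.map (j : K →* F)).range
  have hA : Nat.card A = Fintype.card K - 1 := by
    have h1 : Function.Injective (Units.map (j : K →* F)) := Units.map_injective j.injective
    rw [← Nat.card_congr (MonoidHom.ofInjective h1).toEquiv, Nat.card_eq_fintype_card, Fintype.card_units]
  have h1 := index_sup_pow' A 2 _ hA
  rw [Nat.card_eq_fintype_card, Fintype.card_units] at h1
  rw [← h1]
  refine splitClassCount_eq_index dg _ _ rfl ?_ _ mult mult_surjective (powMonoidHom 2 : Fˣ →* Fˣ).range _ ?_ ?_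
  · change (MulAut.conj : T (Fin m) F →* MulAut (T (Fin m) F)).range ≤ _
    rw [inn_eq]
    rintro _ ⟨s, rfl⟩
    exact ⟨_, rfl⟩
  · intro g
    exact dg_mem_inn hl g
  · intro g
    rw [Subgroup.mem_sup]
    constructor
    · rintro ⟨_, ⟨u, rfl⟩, y, hy, hyy⟩
      let k : ↥(Cfsg.GSp m K) := ⟨(dmat u : gsp (Fin m) K), by rw [GSp_eq]; exact (dmat u : gsp (Fin m) K).2⟩
      refine ⟨incl j k, ?_, ?_⟩
      · rw [ph_comm, mapG_incl j σ hj]
      · have h2 : mult (incl j k) = Units.map (j : K →* F) u := by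
          have h3 : incl j k = dmat (Units.map (j : K →* F) u) := by
            apply Subtype.ext
            apply Units.ext
            ext a b
            change j ((Matrix.diagonal (Sum.elim (fun _ => (u : K)) (fun _ => 1))) a b) =
              (Matrix.diagonal (Sum.elim (fun _ => (j (u : K))) (fun _ => 1))) a b
            by_cases hab : a = b
            · subst hab
              rcases a with a | a <;> simp
            · simp [hab]
          rw [h3, mult_dmat]
        rw [h2, ← hyy, mul_comm, inv_mul_cancel_left]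
        exact hy
    · rintro ⟨k, hk, hkk⟩
      obtain ⟨b, hb⟩ := (commute_ph_iff hm σ k).1 hk
      have hmu : uMap σ (mult (k * scal b)) = mult (k * scal b) := by rw [← mult_mapG, hb]
      have hmu' : σ ((mult (k * scal b) : Fˣ) : F) = ((mult (k * scal b) : Fˣ) : F) := congrArg Units.val hmu
      obtain ⟨κ, hκ⟩ := (hj ((mult (k * scal b) : Fˣ) : F)).1 hmu'
      have hκ0 : κ ≠ 0 := by rintro rfl; rw [map_zero] at hκ; exact (mult (k * scal b)).ne_zero hκ.symm
      refine ⟨mult (k * scal b), ⟨Units.mk0 κ hκ0, Units.ext hκ⟩, (mult g * (mult k)⁻¹) * (b⁻¹) ^ 2, ?_, ?_⟩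
      · exact Subgroup.mul_mem _ hkk ⟨b⁻¹, rfl⟩
      · rw [map_mul, mult_scal, inv_pow]
        calc mult k * b ^ 2 * (mult g * (mult k)⁻¹ * (b ^ 2)⁻¹)
            = mult g * (mult k * (mult k)⁻¹) * (b ^ 2 * (b ^ 2)⁻¹) := by ac_rfl
          _ = _ := by rw [mul_inv_cancel, mul_inv_cancel, mul_one, mul_one]

end incl

theorem gcd_two_aux (q r : ℕ) (hq : 2 ≤ q) (hr : 1 ≤ r) :
    Nat.gcd 2 ((q ^ r - 1) / (q - 1)) = Nat.gcd (Nat.gcd 2 (q ^ r - 1)) r := by
  have h1 : (q ^ r - 1) / (q - 1) = ∑ i ∈ Finset.range r, q ^ i := by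
    rw [Nat.geomSum_eq hq]
  rw [h1]
  rcases Nat.even_or_odd q with he | ho
  · have h2 : (∑ i ∈ Finset.range r, q ^ i) % 2 = 1 := by
      obtain ⟨r', rfl⟩ : ∃ r', r = r' + 1 := ⟨r - 1, by omega⟩
      rw [Finset.sum_range_succ', pow_zero, Nat.add_mod]
      have h3 : (∑ k ∈ Finset.range r', q ^ (k + 1)) % 2 = 0 := by
        rw [← Nat.dvd_iff_mod_eq_zero]
        refine Finset.dvd_sum fun i _ => ?_
        exact dvd_pow (even_iff_two_dvd.1 he) (by omega)
      rw [h3]
      norm_num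
    have h4 : (q ^ r - 1) % 2 = 1 := by
      have h5 : 2 ∣ q ^ r := dvd_pow (even_iff_two_dvd.1 he) (by omega)
      have h6 : 0 < q ^ r := pow_pos (by omega) r
      omega
    have h7 : Nat.gcd 2 (∑ i ∈ Finset.range r, q ^ i) = 1 := by
      rw [Nat.gcd_rec, h2]; rfl
    have h8 : Nat.gcd 2 (q ^ r - 1) = 1 := by
      rw [Nat.gcd_rec, h4]; rfl
    rw [h7, h8, Nat.gcd_one_left]
  · have h2 : (∑ i ∈ Finset.range r, q ^ i) % 2 = r % 2 := by
      have h3 : ∀ r, (∑ i ∈ Finset.range r, q ^ i) % 2 = r % 2 := by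
        intro r
        induction r with
        | zero => simp
        | succ r ih =>
          rw [Finset.sum_range_succ, Nat.add_mod, ih, Nat.odd_iff.1 (ho.pow)]
          omega
      exact h3 r
    have h4 : (q ^ r - 1) % 2 = 0 := by
      have := Nat.odd_iff.1 (ho.pow (n := r))
      omega
    have h8 : Nat.gcd 2 (q ^ r - 1) = 2 := by
      rw [Nat.gcd_rec, h4]; rfl
    rw [h8, Nat.gcd_rec, h2, Nat.gcd_comm, Nat.gcd_comm 2 r, Nat.gcd_comm r 2, Nat.gcd_rec 2 r, Nat.gcd_comm]

end Cfsg.Agent.AutSp
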