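import Cfsg.Agent.AutSp.Lang

/-!
The graph automorphism of `Sp_4(2^f)`.
-/

set_option autoImplicit false

namespace Cfsg.Agent.AutSp

open Matrix ClassSp

variable {F : Type*} [Field F]

/-- first index of the line attached to a point -/
def pa : Fin 2 ⊕ Fin 2 → Fin 2 ⊕ Fin 2
  | Sum.inl i => if i = 0 then Sum.inl 0 else Sum.inl 0
  | Sum.inr i => if i = 0 then Sum.inr 0 else Sum.inl 1

/-- second index -/
def pb : Fin 2 ⊕ Fin 2 → Fin 2 ⊕ Fin 2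
  | Sum.inl i => if i = 0 then Sum.inl 1 else Sum.inr 1
  | Sum.inr i => if i = 0 then Sum.inr 1 else Sum.inr 0

theorem pa_l0 : pa (Sum.inl 0) = Sum.inl 0 := rfl
theorem pa_l1 : pa (Sum.inl 1) = Sum.inl 0 := rfl
theorem pa_r0 : pa (Sum.inr 0) = Sum.inr 0 := rfl
theorem pa_r1 : pa (Sum.inr 1) = Sum.inl 1 := rfl
theorem pb_l0 : pb (Sum.inl 0) = Sum.inl 1 := rfl
theorem pb_l1 : pb (Sum.inl 1) = Sum.inr 1 := rfl
theorem pb_r0 : pb (Sum.inr 0) = Sum.inr 1 := rfl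
theorem pb_r1 : pb (Sum.inr 1) = Sum.inr 0 := rfl

/-- the wedge product -/
def wd (a b : Fin 2 ⊕ Fin 2 → F) : Fin 2 ⊕ Fin 2 → F := fun i => a (pa i) * b (pb i) + a (pb i) * b (pa i)

theorem wd_comm (a b : Fin 2 ⊕ Fin 2 → F) : wd a b = wd b a := by
  funext i; simp only [wd]; ring

theorem ind4 {P : Fin 2 ⊕ Fin 2 → Prop} (h0 : P (Sum.inl 0)) (h1 : P (Sum.inl 1)) (h2 : P (Sum.inr 0))
    (h3 : P (Sum.inr 1)) (i : Fin 2 ⊕ Fin 2) : P i := by
  rcases i with i | i <;> fin_cases i <;> assumption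

theorem sf2 (u v : Fin 2 ⊕ Fin 2 → F) : sf u v = (u (Sum.inl 0) * v (Sum.inr 0) - u (Sum.inr 0) * v (Sum.inl 0)) +
    (u (Sum.inl 1) * v (Sum.inr 1) - u (Sum.inr 1) * v (Sum.inl 1)) := by
  simp only [sf, Fin.sum_univ_two]

section two
variable [CharP F 2]

theorem sf_wd {a b c d : Fin 2 ⊕ Fin 2 → F} (hab : sf a b = 0) (hcd : sf c d = 0) :
    sf (wd a b) (wd c d) = sf a c * sf b d + sf a d * sf b c := by
  have h2 : (2 : F) = 0 := CharTwo.two_eq_zero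
  rw [sf2] at hab hcd
  simp only [sf2, wd, pa_l0, pa_l1, pa_r0, pa_r1, pb_l0, pb_l1, pb_r0, pb_r1]
  linear_combination (norm := (ring_nf; simp only [CharTwo.two_eq_zero, mul_zero, sub_zero, add_zero, neg_zero]))
    (a (Sum.inl 0) * b (Sum.inr 0) - a (Sum.inr 0) * b (Sum.inl 0)) * hcd +
    (c (Sum.inl 1) * d (Sum.inr 1) - c (Sum.inr 1) * d (Sum.inl 1)) * hab

theorem wd_wd {a b c : Fin 2 ⊕ Fin 2 → F} (hab : sf a b = 0) (hac : sf a c = 0) (i : Fin 2 ⊕ Fin 2) :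
    wd (wd a b) (wd a c) i = sf b c * a i ^ 2 := by
  rw [sf2] at hab hac
  induction i using ind4 <;>
  simp only [sf2, wd, pa_l0, pa_l1, pa_r0, pa_r1, pb_l0, pb_l1, pb_r0, pb_r1]
  · linear_combination (norm := (ring_nf; simp only [CharTwo.two_eq_zero, mul_zero, sub_zero, add_zero, neg_zero]))
      a (Sum.inl 0) * c (Sum.inl 0) * hab + a (Sum.inl 0) * b (Sum.inl 0) * hac
  · linear_combination (norm := (ring_nf; simp only [CharTwo.two_eq_zero, mul_zero, sub_zero, add_zero, neg_zero]))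
      a (Sum.inl 1) * c (Sum.inl 1) * hab + a (Sum.inl 1) * b (Sum.inl 1) * hac
  · linear_combination (norm := (ring_nf; simp only [CharTwo.two_eq_zero, mul_zero, sub_zero, add_zero, neg_zero]))
      a (Sum.inr 0) * c (Sum.inr 0) * hab + a (Sum.inr 0) * b (Sum.inr 0) * hac
  · linear_combination (norm := (ring_nf; simp only [CharTwo.two_eq_zero, mul_zero, sub_zero, add_zero, neg_zero]))
      a (Sum.inr 1) * c (Sum.inr 1) * hab + a (Sum.inr 1) * b (Sum.inr 1) * hac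

/-- the minors of a `4 × 4` matrix -/
def gm (g : Matrix (Fin 2 ⊕ Fin 2) (Fin 2 ⊕ Fin 2) F) : Matrix (Fin 2 ⊕ Fin 2) (Fin 2 ⊕ Fin 2) F :=
  Matrix.of fun i j => wd (fun r => g r (pa j)) (fun r => g r (pb j)) i

theorem gm_col (g : Matrix (Fin 2 ⊕ Fin 2) (Fin 2 ⊕ Fin 2) F) (j : Fin 2 ⊕ Fin 2) :
    (fun r => gm g r j) = wd (fun r => g r (pa j)) (fun r => g r (pb j)) := rfl

theorem sf_col (g : symplecticGroup (Fin 2) F) (i j : Fin 2 ⊕ Fin 2) :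
    sf (fun r => (g : Matrix (Fin 2 ⊕ Fin 2) (Fin 2 ⊕ Fin 2) F) r i) (fun r => (g : Matrix (Fin 2 ⊕ Fin 2) (Fin 2 ⊕ Fin 2) F) r j) =
      sf (Pi.single i (1 : F)) (Pi.single j 1) := by
  have h := sf_mulVec g (Pi.single i (1 : F)) (Pi.single j 1)
  rw [Matrix.mulVec_single_one, Matrix.mulVec_single_one] at h
  exact h

theorem gm_sp (g : symplecticGroup (Fin 2) F) : gm (g : Matrix (Fin 2 ⊕ Fin 2) (Fin 2 ⊕ Fin 2) F) ∈ symplecticGroup (Fin 2) F := by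
  have hp : ∀ i : Fin 2 ⊕ Fin 2, sf (Pi.single (pa i) (1 : F)) (Pi.single (pb i) 1) = 0 := by
    intro i
    induction i using ind4 <;> simp [sf2, pa_l0, pa_l1, pa_r0, pa_r1, pb_l0, pb_l1, pb_r0, pb_r1]
  have h2 : (-1 : F) = 1 := by
    have := CharTwo.two_eq_zero (R := F)
    linear_combination -this
  have key : ∀ i j, sf (fun r => gm (g : Matrix (Fin 2 ⊕ Fin 2) (Fin 2 ⊕ Fin 2) F) r i)
      (fun r => gm (g : Matrix (Fin 2 ⊕ Fin 2) (Fin 2 ⊕ Fin 2) F) r j) = sf (Pi.single i (1 : F)) (Pi.single j 1) := by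
    intro i j
    rw [gm_col, gm_col, sf_wd (by rw [sf_col, hp]) (by rw [sf_col, hp]), sf_col, sf_col, sf_col, sf_col]
    induction i using ind4 <;> induction j using ind4 <;>
      simp [sf2, pa_l0, pa_l1, pa_r0, pa_r1, pb_l0, pb_l1, pb_r0, pb_r1, h2]
  rw [mem_symplectic_iff]
  intro u v
  have hmat : (-((gm (g : Matrix (Fin 2 ⊕ Fin 2) (Fin 2 ⊕ Fin 2) F))ᵀ * J (Fin 2) F *
      gm (g : Matrix (Fin 2 ⊕ Fin 2) (Fin 2 ⊕ Fin 2) F))) = -J (Fin 2) F := by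
    have e3 : -J (Fin 2) F = -((1 : Matrix (Fin 2 ⊕ Fin 2) (Fin 2 ⊕ Fin 2) F)ᵀ * J (Fin 2) F * 1) := by simp
    ext i k
    rw [form_entry, e3, form_entry, Matrix.one_mulVec, Matrix.one_mulVec, Matrix.mulVec_single_one, Matrix.mulVec_single_one]
    exact key i k
  rw [← form_matrix, hmat, Matrix.neg_mulVec, dotProduct_neg, ← sf_eq_dotProduct]

theorem row_pair (g : symplecticGroup (Fin 2) F) (i : Fin 2 ⊕ Fin 2) :
    sf (fun r => (g : Matrix (Fin 2 ⊕ Fin 2) (Fin 2 ⊕ Fin 2) F) (pa i) r)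
      (fun r => (g : Matrix (Fin 2 ⊕ Fin 2) (Fin 2 ⊕ Fin 2) F) (pb i) r) = 0 := by
  have h := sf_col (F := F) ⟨(g : Matrix (Fin 2 ⊕ Fin 2) (Fin 2 ⊕ Fin 2) F)ᵀ, SymplecticGroup.transpose_mem g.2⟩ (pa i) (pb i)
  change sf (fun r => (g : Matrix (Fin 2 ⊕ Fin 2) (Fin 2 ⊕ Fin 2) F) (pa i) r)
      (fun r => (g : Matrix (Fin 2 ⊕ Fin 2) (Fin 2 ⊕ Fin 2) F) (pb i) r) = _ at h
  rw [h]
  induction i using ind4 <;> simp [sf2, pa_l0, pa_l1, pa_r0, pa_r1, pb_l0, pb_l1, pb_r0, pb_r1]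

/-- the second exterior power acts on `ω^⊥ / ω` -/
theorem gm_mulVec_wd (g : symplecticGroup (Fin 2) F) {u v : Fin 2 ⊕ Fin 2 → F} (huv : sf u v = 0) :
    gm (g : Matrix (Fin 2 ⊕ Fin 2) (Fin 2 ⊕ Fin 2) F) *ᵥ (wd u v) =
      wd ((g : Matrix (Fin 2 ⊕ Fin 2) (Fin 2 ⊕ Fin 2) F) *ᵥ u) ((g : Matrix (Fin 2 ⊕ Fin 2) (Fin 2 ⊕ Fin 2) F) *ᵥ v) := by
  funext i
  have hr := row_pair g i
  rw [sf2] at hr huv
  simp only [Matrix.mulVec, dotProduct, Fintype.sum_sum_type, Fin.sum_univ_two, gm, Matrix.of_apply, wd,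
    pa_l0, pa_l1, pa_r0, pa_r1, pb_l0, pb_l1, pb_r0, pb_r1]
  generalize pa i = a at *
  generalize pb i = b at *
  set G := (g : Matrix (Fin 2 ⊕ Fin 2) (Fin 2 ⊕ Fin 2) F)
  linear_combination (norm := (ring_nf; simp only [CharTwo.two_eq_zero, mul_zero, sub_zero, add_zero, neg_zero]))
    (G a (Sum.inl 0) * G b (Sum.inr 0) - G a (Sum.inr 0) * G b (Sum.inl 0)) * huv +
    (u (Sum.inl 1) * v (Sum.inr 1) - u (Sum.inr 1) * v (Sum.inl 1)) * hr

/-- the graph homomorphism of `Sp_4(F)` -/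
def gmHom : symplecticGroup (Fin 2) F →* symplecticGroup (Fin 2) F where
  toFun g := ⟨gm (g : Matrix (Fin 2 ⊕ Fin 2) (Fin 2 ⊕ Fin 2) F), gm_sp g⟩
  map_one' := by
    apply Subtype.ext
    ext i j
    change gm (1 : Matrix (Fin 2 ⊕ Fin 2) (Fin 2 ⊕ Fin 2) F) i j = (1 : Matrix (Fin 2 ⊕ Fin 2) (Fin 2 ⊕ Fin 2) F) i j
    simp only [gm, Matrix.of_apply, wd]
    induction i using ind4 <;> induction j using ind4 <;>
      simp [pa_l0, pa_l1, pa_r0, pa_r1, pb_l0, pb_l1, pb_r0, pb_r1, Matrix.one_apply]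
  map_mul' g h := by
    apply Subtype.ext
    apply Matrix.ext_of_mulVec_single
    intro j
    have e : ∀ M : Matrix (Fin 2 ⊕ Fin 2) (Fin 2 ⊕ Fin 2) F, gm M *ᵥ Pi.single j 1 =
        wd (M *ᵥ Pi.single (pa j) 1) (M *ᵥ Pi.single (pb j) 1) := by
      intro M
      rw [Matrix.mulVec_single_one, Matrix.mulVec_single_one, Matrix.mulVec_single_one]
      rfl
    change gm ((g : Matrix (Fin 2 ⊕ Fin 2) (Fin 2 ⊕ Fin 2) F) * (h : Matrix (Fin 2 ⊕ Fin 2) (Fin 2 ⊕ Fin 2) F)) *ᵥ _ =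
      (gm (g : Matrix (Fin 2 ⊕ Fin 2) (Fin 2 ⊕ Fin 2) F) * gm (h : Matrix (Fin 2 ⊕ Fin 2) (Fin 2 ⊕ Fin 2) F)) *ᵥ _
    rw [← Matrix.mulVec_mulVec, e, e, gm_mulVec_wd, ← Matrix.mulVec_mulVec, ← Matrix.mulVec_mulVec]
    rw [sf_mulVec]
    induction j using ind4 <;> simp [sf2, pa_l0, pa_l1, pa_r0, pa_r1, pb_l0, pb_l1, pb_r0, pb_r1]

/-- columns -/
def cl (g : symplecticGroup (Fin 2) F) (j : Fin 2 ⊕ Fin 2) : Fin 2 ⊕ Fin 2 → F :=
  fun r => (g : Matrix (Fin 2 ⊕ Fin 2) (Fin 2 ⊕ Fin 2) F) r j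

theorem gmHom_gmHom (g : symplecticGroup (Fin 2) F) (i j : Fin 2 ⊕ Fin 2) :
    (gmHom (gmHom g) : Matrix (Fin 2 ⊕ Fin 2) (Fin 2 ⊕ Fin 2) F) i j =
      (g : Matrix (Fin 2 ⊕ Fin 2) (Fin 2 ⊕ Fin 2) F) i j ^ 2 := by
  have h2 : (-1 : F) = 1 := by
    have := CharTwo.two_eq_zero (R := F)
    linear_combination -this
  have hcl : ∀ a b, sf (cl g a) (cl g b) = sf (Pi.single a (1 : F)) (Pi.single b 1) := sf_col g
  have key : ∀ a b c, sf (cl g a) (cl g b) = 0 → sf (cl g a) (cl g c) = 0 → sf (cl g b) (cl g c) = 1 →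
      wd (wd (cl g a) (cl g b)) (wd (cl g a) (cl g c)) i = (cl g a i) ^ 2 := by
    intro a b c h1 h2 h3
    rw [wd_wd h1 h2, h3, one_mul]
  change wd (wd (cl g (pa (pa j))) (cl g (pb (pa j)))) (wd (cl g (pa (pb j))) (cl g (pb (pb j)))) i = (cl g j i) ^ 2
  induction j using ind4
  · change wd (wd (cl g (Sum.inl 0)) (cl g (Sum.inl 1))) (wd (cl g (Sum.inl 0)) (cl g (Sum.inr 1))) i = _
    apply key <;> rw [hcl] <;> simp [sf2]
  · change wd (wd (cl g (Sum.inl 0)) (cl g (Sum.inl 1))) (wd (cl g (Sum.inl 1)) (cl g (Sum.inr 0))) i = _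
    rw [wd_comm (cl g (Sum.inl 0))]
    apply key <;> rw [hcl] <;> simp [sf2]
  · change wd (wd (cl g (Sum.inr 0)) (cl g (Sum.inr 1))) (wd (cl g (Sum.inl 1)) (cl g (Sum.inr 0))) i = _
    rw [wd_comm (cl g (Sum.inl 1))]
    apply key <;> rw [hcl] <;> simp [sf2, h2]
  · change wd (wd (cl g (Sum.inl 0)) (cl g (Sum.inr 1))) (wd (cl g (Sum.inr 0)) (cl g (Sum.inr 1))) i = _
    rw [wd_comm (cl g (Sum.inl 0)), wd_comm (cl g (Sum.inr 0))]
    apply key <;> rw [hcl] <;> simp [sf2]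

/-- the graph automorphism -/
noncomputable def gmAut [Finite F] : MulAut (symplecticGroup (Fin 2) F) :=
  MulEquiv.ofBijective gmHom (by
    have hfin : Finite (symplecticGroup (Fin 2) F) := inferInstance
    refine Finite.injective_iff_bijective.1 ?_
    intro g h hgh
    apply Subtype.ext
    ext i j
    have h1 := gmHom_gmHom g i j
    rw [hgh, gmHom_gmHom] at h1
    have h2 : (g.1 i j - h.1 i j) ^ 2 = 0 := by
      have h0 := CharTwo.two_eq_zero (R := F)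
      linear_combination -h1 + (h.1 i j ^ 2 - g.1 i j * h.1 i j) * h0
    exact sub_eq_zero.1 (pow_eq_zero_iff two_ne_zero |>.1 h2))

theorem gmAut_apply [Finite F] (g : symplecticGroup (Fin 2) F) : gmAut g = gmHom g := rfl

/-- the Frobenius automorphism -/
noncomputable def frob2 (F : Type*) [Field F] [CharP F 2] [Finite F] : RingAut F := frobeniusEquiv F 2

theorem frob2_apply [Finite F] (x : F) : frob2 F x = x ^ 2 := frobeniusEquiv_apply F 2 x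

theorem gmAut_sq [Finite F] : (gmAut * gmAut : MulAut (symplecticGroup (Fin 2) F)) = mapSp (frob2 F) := by
  apply MulEquiv.ext
  intro g
  apply Subtype.ext
  ext i j
  change (gmHom (gmHom g) : Matrix (Fin 2 ⊕ Fin 2) (Fin 2 ⊕ Fin 2) F) i j = frob2 F (g.1 i j)
  rw [gmHom_gmHom, frob2_apply]

/-- the graph automorphism of `PSp_4(2^f)` -/
noncomputable def gT (F : Type*) [Field F] [CharP F 2] [Finite F] : MulAut (T (Fin 2) F) := quotC gmAut

theorem gT_sq [Finite F] : gT F * gT F = ph (frob2 F) := by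
  rw [gT, ← map_mul, gmAut_sq, ph, cSp, map_one, one_mul]

/-- the image of a transvection -/
theorem gm_tv : gmHom (tv (Pi.single (Sum.inl 0) (1 : F)) 1) =
    gz 0 (Pi.single (Sum.inl 0) (1 : F)) (Pi.single (Sum.inl 1) 1) := by
  have h2 : (-1 : F) = 1 := by
    have := CharTwo.two_eq_zero (R := F)
    linear_combination -this
  have h0 : sf (Pi.single (Sum.inl 0) (1 : F) : Fin 2 ⊕ Fin 2 → F) (Pi.single (Sum.inl 1) 1) = 0 := by simp [sf2]
  apply Subtype.ext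
  apply Matrix.ext_of_mulVec_single
  intro j
  have e : ∀ M : Matrix (Fin 2 ⊕ Fin 2) (Fin 2 ⊕ Fin 2) F, gm M *ᵥ Pi.single j 1 =
      wd (M *ᵥ Pi.single (pa j) 1) (M *ᵥ Pi.single (pb j) 1) := by
    intro M
    rw [Matrix.mulVec_single_one, Matrix.mulVec_single_one, Matrix.mulVec_single_one]
    rfl
  change gm ((tv (Pi.single (Sum.inl 0) (1 : F)) 1 : symplecticGroup (Fin 2) F) :
    Matrix (Fin 2 ⊕ Fin 2) (Fin 2 ⊕ Fin 2) F) *ᵥ _ = _
  rw [gz_mulVec 0 h0, e, tv_mulVec, tv_mulVec]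
  funext i
  induction j using ind4 <;> induction i using ind4 <;>
    simp [sf2, wd, pa_l0, pa_l1, pa_r0, pa_r1, pb_l0, pb_l1, pb_r0, pb_r1, h2]

end two

end Cfsg.Agent.AutSp
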