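import Cfsg.Agent.AutSp.Graph
import Cfsg.Agent.AutPSL.Struct

/-!
The automorphism group of `PSp_4(2^f)`.
-/

set_option autoImplicit false

namespace Cfsg.Agent.AutSp

open Matrix ClassSp

section gen
variable {l : Type*} [Fintype l] [DecidableEq l] {F : Type*} [Field F]

theorem eq_of_gz_eq [CharP F 2] {d : F} (hd : d ≠ 0) {a b a0 b0 : l ⊕ l → F} (hab : sf a b = 0) (hab0 : sf a0 b0 = 0)
    (ha0 : a0 ≠ 0) (h : gz d a b = gz d a0 b0) : a = a0 ∧ ∃ c : F, b = b0 + c • a0 := by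
  have h2 := CharTwo.two_eq_zero (R := F)
  have key : ∀ x, sf x a • b + (sf x b + d * sf x a) • a = sf x a0 • b0 + (sf x b0 + d * sf x a0) • a0 := by
    intro x
    have h1 := congrArg (fun k : symplecticGroup l F => (k : Matrix (l ⊕ l) (l ⊕ l) F) *ᵥ x) h
    simp only [gz_mulVec d hab, gz_mulVec d hab0] at h1
    exact add_left_cancel h1
  have ha : a = a0 := by
    have h3 : ∀ x, sf x (a - a0) = 0 := by
      intro x
      have h1 := congrArg (fun y => sf x y) (key x)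
      simp only [sf_add_right, sf_smul_right] at h1
      have h4 : d * (sf x a - sf x a0) ^ 2 = 0 := by
        linear_combination h1 + (- sf x a * sf x b + sf x a0 * sf x b0 + d * (sf x a0 ^ 2 - sf x a * sf x a0)) * h2
      have h5 := (mul_eq_zero.1 h4).resolve_left hd
      rw [sf_sub_right]
      exact pow_eq_zero_iff two_ne_zero |>.1 h5
    exact sub_eq_zero.1 (eq_zero_of_sf _ h3)
  refine ⟨ha, ?_⟩
  subst ha
  obtain ⟨y, hy⟩ := exists_sf_ne_zero ha0
  refine ⟨(sf y a)⁻¹ * (sf y b0 - sf y b), ?_⟩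
  have h3 := key y
  have h4 : sf y a • b = sf y a • b0 + (sf y b0 - sf y b) • a := by
    rw [add_smul, add_smul] at h3
    rw [sub_smul]
    have := congrArg (fun z => z - (sf y b • a + (d * sf y a) • a)) h3
    simp only [add_sub_cancel_right] at this
    rw [this]
    abel
  have h5 := congrArg (fun z => (sf y a)⁻¹ • z) h4
  simp only [smul_smul, smul_add, inv_mul_cancel₀ hy, one_smul] at h5
  exact h5

/-- the class of a mixed element is large -/
theorem card_class_mixed [Fintype F] [CharP F 2] {d : F} (hd : d ≠ 0) {v w : l ⊕ l → F} (hv : v ≠ 0) (hvw : sf v w = 0)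
    (hw : ¬ ∃ c : F, w = c • v) :
    Nat.card (Prs l F) ≤ Nat.card {y : T l F // IsConj (mkT (gz d v w)) y} * Fintype.card F := by
  classical
  have hne : Nonempty (Prs l F) := ⟨⟨(v, w), hv, hvw, hw⟩⟩
  have hconj : ∀ ab : Prs l F, IsConj (mkT (gz d v w) : T l F) (mkT (gz d ab.1.1 ab.1.2)) := by
    rintro ⟨⟨a, b⟩, ha, hab, hb⟩
    obtain ⟨g, hg1, hg2⟩ := exists_perp_transitive hv ha hvw hab hw hb
    refine isConj_iff.2 ⟨mkT g, ?_⟩
    rw [← map_inv, ← map_mul, ← map_mul, gz_conj, hg1, hg2]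
  let f : Prs l F → {y : T l F // IsConj (mkT (gz d v w)) y} := fun ab => ⟨_, hconj ab⟩
  have hspan : ∀ ab : Prs l F, ∃ c : F, ∀ ab0 : Prs l F, ab0 = Function.invFun f (f ab) →
      ab.1.1 = ab0.1.1 ∧ ab.1.2 = ab0.1.2 + c • ab0.1.1 := by
    intro ab
    obtain ⟨ab0, hab0⟩ : ∃ ab0, ab0 = Function.invFun f (f ab) := ⟨_, rfl⟩
    have h1 : f ab0 = f ab := by rw [hab0]; exact Function.invFun_eq ⟨ab, rfl⟩
    have h2 : gz d ab.1.1 ab.1.2 = gz d ab0.1.1 ab0.1.2 := by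
      apply mkT_injective
      exact (congrArg Subtype.val h1).symm
    obtain ⟨h3, c, h4⟩ := eq_of_gz_eq hd ab.2.2.1 ab0.2.2.1 ab0.2.1 h2
    refine ⟨c, fun ab1 h5 => ?_⟩
    rw [← hab0] at h5
    subst h5
    exact ⟨h3, h4⟩
  choose c hc using hspan
  have hfin : Finite (T l F) := inferInstance
  have hinj : Function.Injective (fun ab : Prs l F => ((f ab, c ab) :
      {y : T l F // IsConj (mkT (gz d v w)) y} × F)) := by
    intro ab ab' h
    simp only [Prod.mk.injEq] at h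
    obtain ⟨h1, h2⟩ := h
    have e1 := hc ab _ rfl
    have e2 := hc ab' _ rfl
    rw [← h1, ← h2] at e2
    apply Subtype.ext
    exact Prod.ext (e1.1.trans e2.1.symm) (e1.2.trans e2.2.symm)
  have h1 := Nat.card_le_card_of_injective _ hinj
  refine h1.trans (le_of_eq ?_)
  simp only [Nat.card_prod, Nat.card_eq_fintype_card (α := F)]

/-- image of a transvection under an automorphism, characteristic two -/
theorem tv_image_two [Finite F] [CharP F 2] (hl : 2 ≤ Fintype.card l) (α : MulAut (T l F)) {v : l ⊕ l → F} (hv : v ≠ 0)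
    (c : F) : α (mkT (tv v c)) ∈ TvT l F ∨
      ∃ w w2 : l ⊕ l → F, w ≠ 0 ∧ sf w w2 = 0 ∧ (¬ ∃ c : F, w2 = c • w) ∧ α (mkT (tv v c)) = mkT (gz 0 w w2) := by
  classical
  have := Fintype.ofFinite F
  have hp : Fact (Nat.Prime 2) := ⟨Nat.prime_two⟩
  have hl0 : Nonempty l := Fintype.card_pos_iff.1 (by omega)
  rw [or_iff_not_imp_left]
  intro hcon
  -- a Sylow subgroup fixing v
  obtain ⟨P0⟩ := (inferInstance : Nonempty (Sylow 2 (symplecticGroup l F)))
  obtain ⟨v0, hv0, hP0⟩ := exists_fixed (P0 : Subgroup (symplecticGroup l F)) P0.2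
  obtain ⟨g, _, hg⟩ := exists_mem_tvGroup hv0 hv
  let P := g • P0
  have hP : ∀ k ∈ (P : Subgroup (symplecticGroup l F)), (k : Matrix (l ⊕ l) (l ⊕ l) F) *ᵥ v = v := by
    intro k hk
    rw [Sylow.coe_subgroup_smul] at hk
    obtain ⟨k', hk', rfl⟩ := hk
    change ((g * k' * g⁻¹ : symplecticGroup l F) : Matrix (l ⊕ l) (l ⊕ l) F) *ᵥ v = v
    rw [mul_mulVec, mul_mulVec, ← hg, inv_mulVec_mulVec, hP0 k' hk']
  have hfin : Finite (T l F) := inferInstance
  let S : Sylow 2 (T l F) := P.mapSurjective mkT_surjective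
  let S' : Sylow 2 (T l F) := S.mapSurjective (f := α.toMonoidHom) α.surjective
  obtain ⟨P', hP'⟩ := Sylow.mapSurjective_surjective (mkT_surjective (l := l) (F := F)) 2 S'
  obtain ⟨w, hw, hPw⟩ := exists_fixed (P' : Subgroup (symplecticGroup l F)) P'.2
  have hZ : mkT (tv v c) ∈ Zs ((P : Subgroup (symplecticGroup l F)).map mkT) := by
    rw [mem_Zs]
    refine ⟨⟨_, rad_le_sylow P hP (tv_mem_rad v c), rfl⟩, ?_⟩
    rintro _ ⟨h, hh, rfl⟩
    rw [← map_mul, ← map_mul]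
    congr 1
    have := tv_conj h v c
    rw [hP h hh] at this
    exact mul_inv_eq_iff_eq_mul.1 this
  have hZ' : α (mkT (tv v c)) ∈ Zs ((P' : Subgroup (symplecticGroup l F)).map mkT) := by
    have h1 : ((P' : Subgroup (symplecticGroup l F)).map mkT) =
        ((P : Subgroup (symplecticGroup l F)).map mkT).map α.toMonoidHom :=
      congrArg (fun S : Sylow 2 (T l F) => (S : Subgroup (T l F))) hP'
    rw [h1, ← map_Zs]
    exact ⟨_, hZ, rfl⟩
  rw [mem_Zs] at hZ'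
  obtain ⟨⟨k, hk, hk'⟩, hcomm⟩ := hZ'
  rw [← hk'] at hcomm hcon
  have hcomm' : ∀ h ∈ rad w, k * h = h * k := fun h hh =>
    comm_lift hw hPw hk (rad_le_sylow P' hPw hh) (hcomm _ ⟨h, rad_le_sylow P' hPw hh, rfl⟩).symm
  obtain ⟨w2, d, h1, h2, h3⟩ := exists_gz hw (hPw k hk) hcomm' (by
    intro e he
    exact hcon ⟨w, e, by rw [he]⟩)
  by_cases hd : d = 0
  · subst hd
    exact ⟨w, w2, hw, h1, h2, by rw [← hk', h3]⟩
  exfalso
  have hcard1 := card_class_mixed hd hw h1 h2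
  rw [← h3, hk', ← isConj_card, card_Prs (by omega)] at hcard1
  have hcard2 := card_class_tv (F := F) c hv
  have hcard3 := card_ne_zero' (l := l) (F := F)
  set q := Fintype.card F with hq
  have hq2 : 2 ≤ q := Fintype.one_lt_card
  set n := 2 * Fintype.card l with hn
  have hA : Nat.card {a : l ⊕ l → F // a ≠ 0} = q ^ n - 1 := by omega
  rw [hA] at hcard2
  have hpos : 0 < q ^ n - 1 := by
    have : 2 ^ n ≤ q ^ n := Nat.pow_le_pow_left hq2 n
    have : 2 ^ 1 ≤ 2 ^ n := Nat.pow_le_pow_right (by norm_num) (by omega)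
    omega
  have h4 : (q ^ n - 1) * (q ^ (n - 1) - q) ≤ (q ^ n - 1) * q := hcard1.trans (Nat.mul_le_mul_right _ hcard2)
  have h5 := Nat.le_of_mul_le_mul_left h4 hpos
  have h6 : q ^ 3 ≤ q ^ (n - 1) := Nat.pow_le_pow_right (by omega) (by omega)
  have h7 : q * 4 ≤ q ^ 3 := by
    have : q ^ 3 = q * (q * q) := by ring
    rw [this]; exact Nat.mul_le_mul_left q (by nlinarith)
  omega

/-- in characteristic two all transvections are conjugate -/
theorem isConj_tv_two [Finite F] [CharP F 2] {v w : l ⊕ l → F} {c d : F} (hv : v ≠ 0) (hw : w ≠ 0) (hc : c ≠ 0) (hd : d ≠ 0) :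
    IsConj (mkT (tv v c) : T l F) (mkT (tv w d)) := by
  have := Fintype.ofFinite F
  obtain ⟨a, ha⟩ := FiniteField.isSquare_of_char_two (F := F) (ringChar.eq F 2) (d * c⁻¹)
  have ha0 : a ≠ 0 := by
    rintro rfl
    rw [mul_zero] at ha
    exact mul_ne_zero hd (inv_ne_zero hc) ha
  have e : tv w d = tv (a • w) c := by
    rw [tv_smul, pow_two, ← ha, mul_assoc, inv_mul_cancel₀ hc, mul_one]
  obtain ⟨g, _, hg⟩ := exists_mem_tvGroup hv (smul_ne_zero ha0 hw)
  refine isConj_iff.2 ⟨mkT g, ?_⟩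
  rw [← map_inv, ← map_mul, ← map_mul, tv_conj, hg, e]

/-- an automorphism fixing the class of transvections is semilinear -/
theorem semi_of_tv [Finite F] [CharP F 2] (hl : 2 ≤ Fintype.card l) (α : MulAut (T l F)) {v0 : l ⊕ l → F} (hv0 : v0 ≠ 0)
    (h : α (mkT (tv v0 1)) ∈ TvT l F) : ∃ (g : gsp l F) (σ : RingAut F), α = dg g * ph σ := by
  have hne1 : ∀ (v : l ⊕ l → F) (c : F), v ≠ 0 → c ≠ 0 → mkT (tv v c) ≠ (1 : T l F) := by
    intro v c hv hc h
    rw [← map_one (mkT : symplecticGroup l F →* T l F)] at h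
    exact tv_ne_one hv hc (mkT_injective h)
  have h1 : ∀ x, x ∈ TvT l F → α x ∈ TvT l F := by
    intro x hx
    by_cases hx1 : x = 1
    · rw [hx1, map_one]; rwa [hx1] at hx
    obtain ⟨v, c, hv, hc, rfl⟩ := tvT_cases hx hx1
    have h2 := α.toMonoidHom.map_isConj (isConj_tv_two (F := F) hv0 hv one_ne_zero hc)
    obtain ⟨w, d, hw⟩ := h
    obtain ⟨y, hy⟩ := isConj_iff.1 h2
    obtain ⟨g, rfl⟩ := mkT_surjective y
    change mkT g * α (mkT (tv v0 1)) * (mkT g)⁻¹ = α (mkT (tv v c)) at hy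
    rw [← hy, hw, ← map_inv, ← map_mul, ← map_mul, tv_conj]
    exact ⟨_, _, rfl⟩
  have h2 : ∀ x, α x ∈ TvT l F → x ∈ TvT l F := by
    intro x hx
    by_cases hx1 : x = 1
    · rw [hx1]; exact ⟨0, 0, by rw [tv_zero, map_one]⟩
    have hx1' : α x ≠ 1 := fun h => hx1 (by rwa [map_eq_one_iff α α.injective] at h)
    obtain ⟨v, c, hv, hc, he⟩ := tvT_cases hx hx1'
    have h0 : α (mkT (tv v0 1)) ≠ 1 := fun h => hne1 v0 1 hv0 one_ne_zero (by rwa [map_eq_one_iff α α.injective] at h)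
    obtain ⟨w, d, hw, hd, he'⟩ := tvT_cases h h0
    have h3 := isConj_tv_two (F := F) hw hv hd hc
    rw [← he, ← he'] at h3
    obtain ⟨y, hy⟩ := isConj_iff.1 h3
    obtain ⟨z, rfl⟩ := α.surjective y
    rw [← map_inv, ← map_mul, ← map_mul] at hy
    have h4 := α.injective hy
    obtain ⟨g, rfl⟩ := mkT_surjective z
    rw [← h4, ← map_inv, ← map_mul, ← map_mul, tv_conj]
    exact ⟨_, _, rfl⟩
  obtain ⟨g, σ, hα⟩ := exists_semi hl α (fun v hv => map_Xs_of_set hl α (fun x => ⟨h1 x, h2 x⟩) v hv)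
  exact ⟨g, σ, by rw [hα, cSp_eq]⟩

theorem gz_not_tv (hl : 2 ≤ Fintype.card l) [CharP F 2] {v w : l ⊕ l → F} (hv : v ≠ 0) (hvw : sf v w = 0)
    (hw : ¬ ∃ c : F, w = c • v) : mkT (gz 0 v w) ∉ TvT l F := by
  rintro ⟨u, c, h⟩
  have h1 := mkT_injective h
  have key : ∀ x, sf x v • w + sf x w • v = (c * sf x u) • u := by
    intro x
    have h3 := congrArg (fun k : symplecticGroup l F => (k : Matrix (l ⊕ l) (l ⊕ l) F) *ᵥ x) h1
    simp only [gz_mulVec 0 hvw, tv_mulVec, zero_mul, add_zero] at h3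
    exact add_left_cancel h3
  have hw0 : w ≠ 0 := fun h => hw ⟨0, by rw [h, zero_smul]⟩
  have hnp : ¬ ∃ c : F, v = c • w := by
    rintro ⟨e, he⟩
    have he0 : e ≠ 0 := by rintro rfl; rw [zero_smul] at he; exact hv he
    exact hw ⟨e⁻¹, by rw [he, smul_smul, inv_mul_cancel₀ he0, one_smul]⟩
  obtain ⟨x, hx1, hx2⟩ := exists_perp_not_perp hv hw
  obtain ⟨y, hy1, hy2⟩ := exists_perp_not_perp hw0 hnp
  -- sf v x = 0, sf w x ≠ 0
  have hx1' : sf x v = 0 := by rw [sf_swap, hx1, neg_zero]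
  have hx2' : sf x w ≠ 0 := by rw [sf_swap]; simpa using hx2
  have hy1' : sf y w = 0 := by rw [sf_swap, hy1, neg_zero]
  have hy2' : sf y v ≠ 0 := by rw [sf_swap]; simpa using hy2
  have k1 := key x
  have k2 := key y
  rw [hx1', zero_smul, zero_add] at k1
  rw [hy1', zero_smul, add_zero] at k2
  have hcx : c * sf x u ≠ 0 := by
    intro h0; rw [h0, zero_smul] at k1; exact smul_ne_zero hx2' hv k1
  apply hw
  obtain ⟨s, hs⟩ : ∃ s : F, u = s • v := ⟨(c * sf x u)⁻¹ * sf x w, by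
    rw [← smul_smul, k1, smul_smul, inv_mul_cancel₀ hcx, one_smul]⟩
  obtain ⟨t, ht⟩ : ∃ t : F, w = t • u := ⟨(sf y v)⁻¹ * (c * sf y u), by
    rw [← smul_smul, ← k2, smul_smul, inv_mul_cancel₀ hy2', one_smul]⟩
  exact ⟨t * s, by rw [ht, hs, smul_smul]⟩

end gen

section four
variable {F : Type*} [Field F] [CharP F 2] [Finite F]

theorem gT_tv : gT F (mkT (tv (Pi.single (Sum.inl 0) (1 : F)) 1)) =
    mkT (gz 0 (Pi.single (Sum.inl 0) (1 : F)) (Pi.single (Sum.inl 1) 1)) := by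
  rw [← gm_tv]; rfl

theorem e01_props : (Pi.single (Sum.inl 0) (1 : F) : Fin 2 ⊕ Fin 2 → F) ≠ 0 ∧
    sf (Pi.single (Sum.inl 0) (1 : F) : Fin 2 ⊕ Fin 2 → F) (Pi.single (Sum.inl 1) 1) = 0 ∧
    ¬ ∃ c : F, (Pi.single (Sum.inl 1) (1 : F) : Fin 2 ⊕ Fin 2 → F) = c • Pi.single (Sum.inl 0) 1 := by
  refine ⟨?_, by simp [sf2], ?_⟩
  · intro h
    have := congrFun h (Sum.inl 0)
    simp at this
  · rintro ⟨c, hc⟩
    have := congrFun hc (Sum.inl 1)
    simp at this

/-- **Automorphisms of `PSp_4(2^f)`** -/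
theorem aut_classify_four (α : MulAut (T (Fin 2) F)) :
    (∃ (g : gsp (Fin 2) F) (σ : RingAut F), α = dg g * ph σ) ∨
    ∃ (g : gsp (Fin 2) F) (σ : RingAut F), α = gT F * (dg g * ph σ) := by
  obtain ⟨h0, h1, h2⟩ := e01_props (F := F)
  rcases tv_image_two (l := Fin 2) (by rw [Fintype.card_fin]) α h0 (1 : F) with h | ⟨w, w2, hw, hw1, hw2, hα⟩
  · left
    exact semi_of_tv (by rw [Fintype.card_fin]) α h0 h
  · right
    obtain ⟨k, hk1, hk2⟩ := exists_perp_transitive hw h0 hw1 h1 hw2 h2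
    have h3 : ((gT F)⁻¹ * (MulAut.conj (mkT k) * α)) (mkT (tv (Pi.single (Sum.inl 0) (1 : F)) 1)) ∈ TvT (Fin 2) F := by
      change (gT F)⁻¹ (mkT k * α _ * (mkT k)⁻¹) ∈ _
      rw [hα, ← map_inv, ← map_mul, ← map_mul, gz_conj, hk1, hk2, ← gT_tv, MulAut.inv_apply_self]
      exact ⟨_, _, rfl⟩
    obtain ⟨g, σ, hg⟩ := semi_of_tv (by rw [Fintype.card_fin]) _ h0 h3
    -- conj (mkT k) * α = gT * (dg g * ph σ)
    have h4 : MulAut.conj (mkT k) * α = gT F * (dg g * ph σ) := by rw [← hg, mul_inv_cancel_left]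
    -- move conj across gT
    obtain ⟨k', hk'⟩ : ∃ k' : symplecticGroup (Fin 2) F, (gT F) (mkT k') = (mkT k)⁻¹ := by
      obtain ⟨z, hz⟩ := (gT F).surjective (mkT k)⁻¹
      obtain ⟨k', rfl⟩ := mkT_surjective z
      exact ⟨k', hz⟩
    refine ⟨toG k' * g, σ, ?_⟩
    have h5 : α = (MulAut.conj (mkT k))⁻¹ * (gT F * (dg g * ph σ)) := by rw [← h4, inv_mul_cancel_left]
    rw [h5, map_mul, dg_toG]
    have h6 : (MulAut.conj (mkT k))⁻¹ * gT F = gT F * MulAut.conj (mkT k' : T (Fin 2) F) := by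
      rw [← map_inv, ← hk']
      apply MulEquiv.ext
      intro x
      change gT F (mkT k') * gT F x * (gT F (mkT k'))⁻¹ = gT F (mkT k' * x * (mkT k')⁻¹)
      rw [map_mul, map_mul, map_inv]
    rw [← mul_assoc, h6]
    simp only [mul_assoc]

theorem gT_not_semi (g : gsp (Fin 2) F) (σ : RingAut F) : gT F ≠ dg g * ph σ := by
  intro h
  obtain ⟨h0, h1, h2⟩ := e01_props (F := F)
  have h3 := gT_tv (F := F)
  rw [h, ← cSp_eq, cSp_mkT] at h3
  obtain ⟨d, hd⟩ := conj_tv g σ (Pi.single (Sum.inl 0) (1 : F)) 1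
  rw [hd] at h3
  exact gz_not_tv (by rw [Fintype.card_fin]) h0 h1 h2 (by rw [← h3]; exact ⟨_, _, rfl⟩)

end four

end Cfsg.Agent.AutSp
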