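import Cfsg.Agent.AutSp.Graph2
import Cfsg.Agent.AutLie.TypeHom

/-!
Orders of `Aut(PSp_{2m}(q))`, and `Out(PSp_4(2^f))`.
-/

set_option autoImplicit false

namespace Cfsg.Agent.AutSp

open Matrix ClassSp

section gen
variable {l : Type*} [Fintype l] [DecidableEq l] {F : Type*} [Field F]

/-- `PSp` is centerless -/
theorem conj_injective [Finite F] (hl : 2 ≤ Fintype.card l) :
    Function.Injective (MulAut.conj : T l F →* MulAut (T l F)) := by
  have hne : Nonempty l := Fintype.card_pos_iff.1 (by omega)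
  rw [injective_iff_map_eq_one]
  intro x hx
  obtain ⟨s, rfl⟩ := mkT_surjective x
  rw [← dg_toG, ← map_one (dg : gsp l F →* MulAut (T l F)), dg_eq_iff hl] at hx
  obtain ⟨c, hc⟩ := hx
  rw [one_mul] at hc
  rw [mkT_eq_one_iff]
  refine ⟨c, ?_, fun v => ?_⟩
  · have h1 : mult (toG s) = c ^ 2 := by rw [hc, mult_scal]
    rw [mult_toG] at h1
    rw [← Units.val_pow_eq_pow_val, ← h1, Units.val_one]
  · rw [← toG_mulVec, hc, scal_mulVec]

theorem card_inn [Finite F] (hl : 2 ≤ Fintype.card l) : Nat.card (Cfsg.Inn (T l F)) = Nat.card (T l F) :=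
  (Nat.card_congr (MonoidHom.ofInjective (conj_injective hl)).toEquiv).symm

theorem inn_le_range : Cfsg.Inn (T l F) ≤ (dg : gsp l F →* MulAut (T l F)).range := by
  change (MulAut.conj : T l F →* MulAut (T l F)).range ≤ _
  rw [inn_eq]
  rintro _ ⟨s, rfl⟩
  exact ⟨_, rfl⟩

end gen

/-- the order of `Aut(PSp_{2m}(q))` in the case without graph automorphism -/
theorem card_aut {F : Type*} [Field F] [Fintype F] {p f m : ℕ} [Fact p.Prime] (hF : Fintype.card F = p ^ f) (hm : 2 ≤ m)
    (h : m = 2 → p ≠ 2) : Nat.card (MulAut (T (Fin m) F)) = Nat.gcd 2 (p ^ f - 1) * f * Nat.card (T (Fin m) F) := by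
  have hcp : CharP F p := AutLie.charP_of_card hF
  have hl : 2 ≤ Fintype.card (Fin m) := by rw [Fintype.card_fin]; exact hm
  have hne : Nonempty (Fin m) := ⟨⟨0, by omega⟩⟩
  have hfin : Finite (T (Fin m) F) := inferInstance
  have hfin2 : Finite (MulAut (T (Fin m) F)) :=
    Finite.of_injective (fun τ : MulAut (T (Fin m) F) => (τ : T (Fin m) F → T (Fin m) F)) (fun a b h => MulEquiv.ext (congrFun h))
  obtain ⟨Ψ, h1, h2, h3⟩ := exists_Psi (F := F) hm p h
  obtain ⟨_, hcard⟩ := AutPSL.ringAut_cyclic_card F hF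
  have h4 := AutLie.card_of_typeHom (dg : gsp (Fin m) F →* _) Ψ h1 h2 (Cfsg.Inn (T (Fin m) F)) inn_le_range mult
    mult_surjective (powMonoidHom 2 : Fˣ →* Fˣ).range (fun g => dg_mem_inn hl g)
  classical
  rw [IsCyclic.index_powMonoidHom_range, hcard, Nat.card_eq_fintype_card (α := Fˣ), Fintype.card_units, hF, card_inn hl,
    Nat.gcd_comm] at h4
  exact h4

section four
variable {F : Type*} [Field F] [CharP F 2] [Finite F]

theorem dg_inn_two (g : gsp (Fin 2) F) : dg g ∈ Cfsg.Inn (T (Fin 2) F) := by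
  have := Fintype.ofFinite F
  have hne : Nonempty (Fin 2) := ⟨0⟩
  change dg g ∈ (MulAut.conj : T (Fin 2) F →* MulAut (T (Fin 2) F)).range
  rw [dg_mem_inn (by rw [Fintype.card_fin])]
  obtain ⟨c, hc⟩ := FiniteField.isSquare_of_char_two (F := F) (ringChar.eq F 2) ((mult g : Fˣ) : F)
  have hc0 : c ≠ 0 := by rintro rfl; rw [mul_zero] at hc; exact (mult g).ne_zero hc
  refine ⟨Units.mk0 c hc0, ?_⟩
  apply Units.ext
  rw [powMonoidHom_apply, Units.val_pow_eq_pow_val, Units.val_mk0, hc, pow_two]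

theorem frob2_pow_apply (k : ℕ) (x : F) : (frob2 F ^ k : RingAut F) x = x ^ 2 ^ k := by
  induction k with
  | zero => simp
  | succ k ih =>
    rw [pow_succ', RingAut.mul_apply, ih, frob2_apply, ← pow_mul, pow_succ]

/-- the Frobenius has order `f` -/
theorem orderOf_frob2 {f : ℕ} (hF : Nat.card F = 2 ^ f) (hf : 1 ≤ f) : orderOf (frob2 F) = f := by
  classical
  have := Fintype.ofFinite F
  rw [Nat.card_eq_fintype_card] at hF
  rw [orderOf_eq_iff (by omega)]
  constructor
  · ext x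
    rw [frob2_pow_apply, ← hF, FiniteField.pow_card]; rfl
  · intro k hk hk0 h
    have h1 : ∀ x : F, x ^ 2 ^ k = x := by
      intro x
      rw [← frob2_pow_apply, h]; rfl
    have h2 : Fintype.card F ≤ 2 ^ k := by
      let P : Polynomial F := Polynomial.X ^ 2 ^ k - Polynomial.X
      have hk1 : 1 < 2 ^ k := Nat.one_lt_two_pow (by omega)
      have hP : P ≠ 0 := FiniteField.X_pow_card_pow_sub_X_ne_zero F (n := k) (p := 2) (by omega) (by norm_num)
      have hdeg : P.natDegree = 2 ^ k := FiniteField.X_pow_card_pow_sub_X_natDegree_eq F (by omega) (by norm_num)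
      have h3 : (Finset.univ : Finset F) ⊆ P.roots.toFinset := by
        intro x _
        rw [Multiset.mem_toFinset, Polynomial.mem_roots hP, Polynomial.IsRoot.def]
        simp [P, h1]
      calc Fintype.card F = (Finset.univ : Finset F).card := rfl
        _ ≤ P.roots.toFinset.card := Finset.card_le_card h3
        _ ≤ Multiset.card P.roots := Multiset.toFinset_card_le _
        _ ≤ P.natDegree := Polynomial.card_roots' P
        _ = 2 ^ k := hdeg
    rw [hF] at h2
    have := (Nat.pow_le_pow_iff_right (by norm_num : 1 < 2)).1 h2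
    omega

theorem frob2_gen {f : ℕ} (hF : Nat.card F = 2 ^ f) (hf : 1 ≤ f) (σ : RingAut F) : ∃ k : ℕ, frob2 F ^ k = σ := by
  have := Fintype.ofFinite F
  have hF' := hF
  rw [Nat.card_eq_fintype_card] at hF'
  have hp : Fact (Nat.Prime 2) := ⟨Nat.prime_two⟩
  obtain ⟨_, hcard⟩ := AutPSL.ringAut_cyclic_card F hF'
  have hfin : Finite (RingAut F) :=
    Finite.of_injective (fun τ : RingAut F => (τ : F → F)) (fun a b h => RingEquiv.ext (congrFun h))
  have h2 : Subgroup.zpowers (frob2 F) = ⊤ := by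
    apply Subgroup.eq_top_of_card_eq
    rw [Nat.card_zpowers, orderOf_frob2 hF hf, hcard]
  have h3 : σ ∈ Subgroup.zpowers (frob2 F) := by rw [h2]; trivial
  rw [← mem_powers_iff_mem_zpowers] at h3
  exact h3

theorem out_four {f : ℕ} (hF : Nat.card F = 2 ^ f) (hf : 1 ≤ f) :
    IsCyclic (Cfsg.Out (T (Fin 2) F)) ∧ Nat.card (Cfsg.Out (T (Fin 2) F)) = 2 * f := by
  have hl : 2 ≤ Fintype.card (Fin 2) := by rw [Fintype.card_fin]
  have hfin : Finite (T (Fin 2) F) := inferInstance
  have hfin2 : Finite (MulAut (T (Fin 2) F)) :=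
    Finite.of_injective (fun τ : MulAut (T (Fin 2) F) => (τ : T (Fin 2) F → T (Fin 2) F)) (fun a b h => MulEquiv.ext (congrFun h))
  let π : MulAut (T (Fin 2) F) →* Cfsg.Out (T (Fin 2) F) := QuotientGroup.mk' _
  have hπd : ∀ g : gsp (Fin 2) F, π (dg g) = 1 := fun g => (QuotientGroup.eq_one_iff _).2 (dg_inn_two g)
  have hsq : π (gT F) ^ 2 = π (ph (frob2 F)) := by rw [pow_two, ← map_mul, gT_sq]
  have hph : ∀ k : ℕ, π (ph (frob2 F ^ k)) = (π (gT F) ^ 2) ^ k := by
    intro k
    rw [← ph_pow, map_pow, hsq]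
  have hgen : Subgroup.zpowers (π (gT F)) = ⊤ := by
    rw [eq_top_iff]
    intro x _
    obtain ⟨α, rfl⟩ := QuotientGroup.mk'_surjective _ x
    have hphm : ∀ σ : RingAut F, π (ph σ) ∈ Subgroup.zpowers (π (gT F)) := by
      intro σ
      obtain ⟨k, rfl⟩ := frob2_gen hF hf σ
      rw [hph]
      exact Subgroup.pow_mem _ (Subgroup.pow_mem _ (Subgroup.mem_zpowers _) _) _
    rcases aut_classify_four α with ⟨g, σ, rfl⟩ | ⟨g, σ, rfl⟩
    · change π (dg g * ph σ) ∈ _
      rw [map_mul, hπd, one_mul]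
      exact hphm σ
    · change π (gT F * (dg g * ph σ)) ∈ _
      rw [map_mul, map_mul, hπd, one_mul]
      exact Subgroup.mul_mem _ (Subgroup.mem_zpowers _) (hphm σ)
  have hinj : ∀ σ : RingAut F, π (ph σ) = 1 → σ = 1 := by
    intro σ h
    obtain ⟨x, hx⟩ := (QuotientGroup.eq_one_iff _).1 h
    obtain ⟨s, rfl⟩ := mkT_surjective x
    rw [← dg_toG] at hx
    have h1 : dg (toG s)⁻¹ * ph σ = (1 : MulAut (T (Fin 2) F)) := by rw [← hx, ← map_mul, inv_mul_cancel, map_one]
    exact ((cSp_eq_one_iff hl _ _).1 h1).1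
  have h2 : orderOf (π (gT F) ^ 2) = f := by
    rw [← orderOf_frob2 hF hf]
    apply Nat.dvd_antisymm
    · rw [orderOf_dvd_iff_pow_eq_one, ← hph, pow_orderOf_eq_one]
      have : (ph 1 : MulAut (T (Fin 2) F)) = 1 := cSp_one
      rw [this, map_one]
    · rw [orderOf_dvd_iff_pow_eq_one]
      apply hinj
      rw [hph, pow_orderOf_eq_one]
  have hpos : 0 < orderOf (π (gT F)) := orderOf_pos _
  have h3 : orderOf (π (gT F)) = 2 * f := by
    have h4 := orderOf_pow (π (gT F)) (n := 2)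
    rw [h2] at h4
    rcases Nat.even_or_odd (orderOf (π (gT F))) with he | ho
    · obtain ⟨k, hk⟩ := he
      have h5 : Nat.gcd (orderOf (π (gT F))) 2 = 2 := by
        rw [Nat.gcd_comm, Nat.gcd_eq_left_iff_dvd]
        exact ⟨k, by omega⟩
      rw [h5] at h4
      omega
    · exfalso
      obtain ⟨k, hk⟩ := ho
      have h5 : π (gT F) ^ (2 * (k + 1)) = π (gT F) := by
        have : 2 * (k + 1) = orderOf (π (gT F)) + 1 := by omega
        rw [this, pow_succ, pow_orderOf_eq_one, one_mul]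
      rw [pow_mul, ← hph] at h5
      obtain ⟨x, hx, hx'⟩ := (QuotientGroup.mk'_eq_mk' _).1 h5
      obtain ⟨y, rfl⟩ := hx
      obtain ⟨s, rfl⟩ := mkT_surjective y
      rw [← dg_toG, ph_comm] at hx'
      exact gT_not_semi _ _ hx'.symm
  constructor
  · refine ⟨π (gT F), fun x => ?_⟩
    have hx : x ∈ Subgroup.zpowers (π (gT F)) := by rw [hgen]; trivial
    exact hx
  · have h5 := Nat.card_zpowers (π (gT F))
    rw [hgen, Subgroup.card_top, h3] at h5
    exact h5

end four

end Cfsg.Agent.AutSp
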